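import Cfsg.Agent.H140.TC.Fam
import Mathlib.LinearAlgebra.Matrix.ProjectiveSpecialLinearGroup
import Cfsg.Prelude.Def_Classical

/-!
# S4173, the groups `PSL_n(F)` (two fixed classes)

* `tc_sl` : the two classes from two block diagonal matrices of determinant one.
* `tc_psl` : all `PSL_n(F)` except `PSL_2(2)`, `PSL_2(3)`.
-/

set_option autoImplicit false

namespace Cfsg.Agent.H140.TC

open Matrix Polynomial Cfsg.Agent.H126.PwO Cfsg.Agent.H962.PP Cfsg.Agent.H140.OreO

section field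
variable {F : Type*} [Field F]

/-- irreducible, norm one -/
theorem exists_norm_one (F : Type*) [Field F] [Finite F] {d : ℕ} (hd : 2 ≤ d) :
    ∃ f : F[X], f.Monic ∧ Irreducible f ∧ f.natDegree = d ∧ (-1) ^ d * f.coeff 0 = 1 := by
  have hq : 2 ≤ Nat.card F := Finite.one_lt_card
  have hs : (Nat.card F ^ d - 1) / (Nat.card F - 1) ∣ Nat.card F ^ d - 1 := by
    apply Nat.div_dvd_of_dvd
    simpa using Nat.sub_dvd_pow_sub_pow (Nat.card F) 1 d
  obtain ⟨f, hf⟩ := exists_pol F (by omega) hs (fun k hk hkd => by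
    have h1 := (geom_lt hq hkd (by omega)).2
    have h2 : 2 ≤ Nat.card F ^ k := by
      calc 2 ≤ Nat.card F ^ 1 := by simpa using hq
        _ ≤ _ := Nat.pow_le_pow_right (by omega) hk
    exact not_dvd_of_lt (by omega) (by omega))
  refine ⟨f, hf.monic, hf.irr, hf.deg, ?_⟩
  have := (hf.coef 1).2 (by rw [mul_one])
  rwa [pow_one] at this

/-- the two classes from block diagonal matrices -/
theorem tc_blk {k : ℕ} {d : F} {C₀ : Matrix (Fin (k + 1)) (Fin (k + 1)) F} (hC : Cyc C₀)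
    (hd : C₀.charpoly.eval d ≠ 0) (hdet : d * C₀.det = 1) :
    TC (ProjectiveSpecialLinearGroup (Fin (k + 2)) F) := by
  have hd0 : d ≠ 0 := left_ne_zero_of_mul (by rw [hdet]; exact one_ne_zero)
  have hC0 : C₀.det ≠ 0 := right_ne_zero_of_mul (by rw [hdet]; exact one_ne_zero)
  obtain ⟨x₀, hx₀⟩ : ∃ x₀ : SpecialLinearGroup (Fin (k + 2)) F, x₀.val = blk d C₀ :=
    ⟨⟨blk d C₀, by rw [blk_det, hdet]⟩, rfl⟩
  refine ⟨QuotientGroup.mk' _ x₀, QuotientGroup.mk' _ x₀, fun g hg => ?_⟩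
  obtain ⟨A, rfl⟩ := QuotientGroup.mk'_surjective
    (Subgroup.center (SpecialLinearGroup (Fin (k + 2)) F)) g
  have hA : ∀ c : F, (A : Matrix (Fin (k + 2)) (Fin (k + 2)) F) ≠ scalar (Fin (k + 2)) c := by
    intro c hc
    apply hg
    refine (QuotientGroup.eq_one_iff A).mpr ?_
    rw [Matrix.SpecialLinearGroup.mem_center_iff]
    refine ⟨c, ?_, hc.symm⟩
    have h1 := A.det_coe
    rw [hc, Matrix.scalar_apply, Matrix.det_diagonal, Finset.prod_const, Finset.card_univ] at h1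
    exact h1
  obtain ⟨P, Q, hP, hQ, h⟩ := exists_mul_conj_blk (A : Matrix (Fin (k + 2)) (Fin (k + 2)) F) hA d C₀ hC hC0
    hd0 hd d C₀ hC hC0 hd0 hd (by rw [hdet, A.det_coe, one_mul])
  obtain ⟨P', hP'⟩ : ∃ P' : SpecialLinearGroup (Fin (k + 2)) F, P'.val = P := ⟨⟨P, hP⟩, rfl⟩
  obtain ⟨Q', hQ'⟩ : ∃ Q' : SpecialLinearGroup (Fin (k + 2)) F, Q'.val = Q := ⟨⟨Q, hQ⟩, rfl⟩
  have hi : ∀ (R : Matrix (Fin (k + 2)) (Fin (k + 2)) F) (R' : SpecialLinearGroup (Fin (k + 2)) F),
      R'.val = R → R⁻¹ = (R'⁻¹).val := by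
    intro R R' hR
    apply Matrix.inv_eq_right_inv
    have h1 : (R' * R'⁻¹).val = 1 := by rw [mul_inv_cancel]; rfl
    rw [← hR]
    exact h1
  have e : A = (P' * x₀ * P'⁻¹) * (Q' * x₀ * Q'⁻¹) := by
    apply Subtype.ext
    rw [h, hi P P' hP', hi Q Q' hQ', ← hP', ← hQ', ← hx₀]
    rfl
  refine ⟨QuotientGroup.mk' _ P', QuotientGroup.mk' _ Q', ?_⟩
  conv_lhs => rw [e]
  rfl

end field

/-- **`PSL_n(F)`** -/
theorem tc_psl {n : ℕ} (hn : 2 ≤ n) (F : Type*) [Field F] [Finite F] (hex : 3 ≤ n ∨ 4 ≤ Nat.card F) :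
    TC (ProjectiveSpecialLinearGroup (Fin n) F) := by
  obtain ⟨k, rfl⟩ : ∃ k, n = k + 2 := ⟨n - 2, by omega⟩
  rcases Nat.eq_zero_or_pos k with rfl | hk
  · have h4 : 4 ≤ Nat.card F := by omega
    obtain ⟨d, hd0, hd⟩ : ∃ d : F, d ≠ 0 ∧ d ^ 2 ≠ 1 := by
      classical
      have := Fintype.ofFinite F
      by_contra hcon
      push Not at hcon
      have h1 : (Finset.univ : Finset F) ⊆ {0, 1, -1} := by
        intro x _
        simp only [Finset.mem_insert, Finset.mem_singleton]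
        by_cases hx : x = 0
        · exact Or.inl hx
        · right
          have h2 := hcon x hx
          have h3 : (x - 1) * (x + 1) = 0 := by linear_combination h2
          rcases mul_eq_zero.1 h3 with h | h
          · exact Or.inl (sub_eq_zero.1 h)
          · exact Or.inr (eq_neg_of_add_eq_zero_left h)
      have h2 := Finset.card_le_card h1
      rw [Finset.card_univ, ← Nat.card_eq_fintype_card] at h2
      have h3 : ({0, 1, -1} : Finset F).card ≤ 3 := Finset.card_le_three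
      omega
    refine tc_blk (k := 0) (d := d) (C₀ := !![d⁻¹]) ?_ ?_ ?_
    · refine ⟨fun _ => 1, ?_⟩
      rw [Fintype.linearIndependent_iff]
      intro g hg i
      have h1 := congrFun hg 0
      have hi : i = 0 := Fin.ext (by omega)
      subst hi
      simpa [Finset.univ_unique] using h1
    · rw [Matrix.charpoly, Matrix.det_fin_one, Matrix.charmatrix_apply_eq]
      simp only [Matrix.of_apply, Matrix.cons_val', Matrix.cons_val_fin_one, eval_sub, eval_X, eval_C, ne_eq]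
      intro h
      apply hd
      rw [sub_eq_zero] at h
      rw [pow_two]
      nth_rw 2 [h]
      exact mul_inv_cancel₀ hd0
    · rw [Matrix.det_fin_one_of]
      exact mul_inv_cancel₀ hd0
  · obtain ⟨f, hfm, hfi, hfd, hfN⟩ := exists_norm_one F (show 2 ≤ k + 1 by omega)
    obtain ⟨B, hB⟩ := exists_matrix f hfm (coeff_zero_ne hfi (by omega)) hfd
    refine tc_blk (k := k) (d := 1) (C₀ := B) (cyc_of_irr (by omega) (by rw [hB]; exact hfi)) ?_ ?_
    · rw [hB]
      exact eval_ne_zero hfi (by omega) 1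
    · rw [one_mul, det_eq_sign_charpoly_coeff, hB, Fintype.card_fin, hfN]

theorem tc_isPSL {G : Type*} [Group G] (h : Cfsg.IsPSL G) : TC G := by
  obtain ⟨F, _, _, n, hn, h2, ⟨e⟩⟩ := h
  refine TC.of_equiv e (tc_psl hn F ?_)
  rcases Nat.lt_or_ge n 3 with h | h
  · right
    rw [Nat.card_eq_fintype_card]
    exact h2 (by omega)
  · exact Or.inl h

end Cfsg.Agent.H140.TC
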